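import Cfsg.Agent.H95.DG.F4
import Cfsg.Agent.H891.DG.Nielsen

/-!
# S4180, C14: the row `Cos2` for `F₄(q)` (helper95)
-/

set_option autoImplicit false

namespace Cfsg.Agent.H95.DG.CosF4

open Cfsg Cfsg.Lie Cfsg.Agent.H891.DG Cfsg.Agent.H891.Gen Cfsg.Agent.H95.DG.F4 Subgroup

universe u v

/-- transfer -/
theorem cos2_of_equiv {T : Type u} [Group T] {K : Type v} [Group K] (e : T ≃* K) (h : Cos2 K) : Cos2 T := by
  intro x y
  obtain ⟨s, ⟨s', hs'⟩, t, ⟨t', ht'⟩, hst⟩ := h (MulAut.congr e x) (MulAut.congr e y)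
  have hconj : ∀ a : T, MulAut.congr e (MulAut.conj a) = MulAut.conj (e a) := by
    intro a
    ext z
    show e (a * e.symm z * a⁻¹) = e a * z * (e a)⁻¹
    rw [map_mul, map_mul, map_inv, e.apply_symm_apply]
  refine ⟨MulAut.conj (e.symm s'), ⟨_, rfl⟩, MulAut.conj (e.symm t'), ⟨_, rfl⟩, ?_⟩
  rintro _ ⟨g, rfl⟩
  have h1 := hst ⟨e g, rfl⟩
  have h2 : closure ({MulAut.congr e x * s, MulAut.congr e y * t} : Set (MulAut K)) =
      (closure ({x * MulAut.conj (e.symm s'), y * MulAut.conj (e.symm t')} : Set (MulAut T))).map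
        (MulAut.congr e).toMonoidHom := by
    rw [MonoidHom.map_closure, Set.image_pair]
    congr 1
    show _ = ({MulAut.congr e (x * MulAut.conj (e.symm s')), MulAut.congr e (y * MulAut.conj (e.symm t'))} :
      Set (MulAut K))
    rw [map_mul, map_mul, hconj, hconj, e.apply_symm_apply, e.apply_symm_apply, hs', ht']
  rw [h2] at h1
  obtain ⟨z, hz, hze⟩ := h1
  have h3 : z = MulAut.conj g := by
    apply (MulAut.congr e).injective
    rw [hconj]
    exact hze
  rw [← h3]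
  exact hz

/-- `Cos2` for a group `K` with cyclic `Out K`, from pairs `p ∈ Inn`, `n ψ` (`n ∈ Inn`). -/
theorem cos2_of_pairs {K : Type u} [Group K] [Finite K] [IsCyclic (Cfsg.Out K)]
    (h : ∀ ψ : MulAut K, ∃ p ∈ Cfsg.Inn K, ∃ n ∈ Cfsg.Inn K, Cfsg.Inn K ≤ closure {p, n * ψ}) : Cos2 K := by
  have : Finite (MulAut K) := Finite.of_injective (fun f : MulAut K => (f : K → K)) DFunLike.coe_injective
  have : Finite (Cfsg.Out K) := inferInstance
  refine Nielsen.cos2_of_ker (QuotientGroup.mk' (Cfsg.Inn K)) fun x y hx => ?_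
  have hx' : x ∈ Cfsg.Inn K := by
    rw [← QuotientGroup.eq_one_iff]
    exact hx
  obtain ⟨p, hp, n, hn, hpn⟩ := h y
  refine ⟨x⁻¹ * p, mul_mem (inv_mem hx') hp, y⁻¹ * n * y, ?_, ?_⟩
  · have := (Nielsen.inn_normal K).conj_mem n hn y⁻¹
    rwa [inv_inv] at this
  · rwa [mul_inv_cancel_left, mul_assoc, mul_inv_cancel_left]

theorem cos2_F4 (F : Type) [Field F] [Finite F] : Cos2 ↥(chevF4.group F) := by
  have : Finite ↥(chevF4.group F) := inferInstance
  exact cos2_of_pairs exists_pair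

/-- **The row `Rows.f4` of `Rows Cos2`.** -/
theorem cos2_f4 (T : Type u) [Group T] [Finite T] [IsSimpleGroup T] (h : Cfsg.Lie.IsoF4 T) : Cos2 T := by
  obtain ⟨F, _, _, ⟨e⟩⟩ := h
  exact cos2_of_equiv e (cos2_F4 F)

end Cfsg.Agent.H95.DG.CosF4
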