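import Cfsg.Agent.H95.DG.Mono
import Cfsg.Agent.H135.TwoGenTab
import Cfsg.Agent.H69.OutGF
import Cfsg.Agent.LieRecognition.FieldSemilinear

/-!
# The automorphisms of `F₄(q)`, and pairs generating `Inn` (helper95)

* `aut_eq` : every automorphism is an inner one, times a power of the exceptional graph automorphism (characteristic
  two), times a field automorphism;
* `pair_field`, `pair_graph` : for `β` a field automorphism, or a graph automorphism times a field automorphism, there is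
  a pair `p ∈ Inn`, `q ∈ Inn β` with `Inn ≤ ⟨p, q⟩`.
-/

set_option autoImplicit false

namespace Cfsg.Agent.H95.DG.F4

open scoped Pointwise
open Cfsg Cfsg.Lie Cfsg.Agent.ChevalleyStructure.Elts Cfsg.Agent.Schreier.ChevLocal
open Cfsg.Agent.H70.ChevFix Cfsg.Agent.H70.ChevField Cfsg.Agent.H70.OutCount Cfsg.Agent.H135.TwoG
open Cfsg.Agent.H69.OutGF Cfsg.Agent.H95.DG.Mono

universe u

theorem hD : InList chevF4 := by simp

variable {F : Type u} [Field F]

/-- The Chevalley group `F₄(F)` -/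
abbrev K (F : Type u) [Field F] : Type u := ↥(chevF4.group F)

/-- the values of a field automorphism -/
def IsField (α : MulAut (K F)) (τ : F ≃+* F) : Prop := ∀ r < 48, ∀ t : F, α (xe hD r t) = xe hD r (τ t)

theorem exists_isField (τ : F ≃+* F) : ∃ α : MulAut (K F), IsField α τ := exists_fieldAut hD τ

/-- the exceptional permutation of the roots -/
def bar (r : ℕ) : ℕ := [3, 7, 8, 0, 9, 11, 18, 1, 2, 4, 15, 5, 16, 21, 23, 10, 12, 19, 6, 17, 22, 13, 20, 14, 33, 27, 34,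
  25, 30, 41, 28, 35, 37, 24, 26, 31, 42, 32, 43, 45, 46, 29, 36, 38, 47, 39, 40, 44].getD r 0

/-- the exponents -/
def lam (r : ℕ) : ℕ := [1, 1, 1, 2, 1, 1, 1, 2, 2, 2, 2, 2, 2, 2, 2, 1, 1, 1, 2, 2, 2, 1, 1, 1, 1, 1, 1, 2, 2, 2, 1, 1,
  1, 2, 2, 2, 2, 2, 2, 2, 2, 1, 1, 1, 2, 1, 1, 1].getD r 0

/-- the values of the exceptional graph automorphism -/
def IsGraph (ρ : MulAut (K F)) : Prop := ∀ r < 48, ∀ t : F, ρ (xe hD r t) = xe hD (bar r) (t ^ lam r)

theorem exists_isGraph [Finite F] [CharP F 2] : ∃ ρ : MulAut (K F), IsGraph ρ := by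
  have : Fact (Nat.Prime 2) := ⟨Nat.prime_two⟩
  obtain ⟨α, hα⟩ := Cfsg.Agent.ChevalleyStructure.GraphF4.exists_graph (K := F) (hperf 2)
  refine ⟨α, fun r hr t => ?_⟩
  exact eq_xe hD (hα (xe hD r t) r t hr (coe_coe_xe hD r t))

/-! ### the torus -/

theorem cartan_simple : ∀ i < 4, ∀ j < 4, chevF4.cartan i (chevF4.simple j) =
    (([[2, -1, 0, 0], [-1, 2, -2, 0], [0, -1, 2, -1], [0, 0, -1, 2]] : List (List ℤ)).getD i []).getD j 0 := by
  decide +kernel

theorem cartan_neg_simple : ∀ i < 4, ∀ j < 4, chevF4.cartan i (chevF4.neg (chevF4.simple j)) =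
    - (([[2, -1, 0, 0], [-1, 2, -2, 0], [0, -1, 2, -1], [0, 0, -1, 2]] : List (List ℤ)).getD i []).getD j 0 := by
  decide +kernel

/-- a product of the `h`'s -/
theorem prod_conj (m : Fin 4 → Fˣ) {s : ℕ} (hs : s < 48) (t : F) :
    (he hD (chevF4.simple 0) (m 0 : F) * he hD (chevF4.simple 1) (m 1 : F) * he hD (chevF4.simple 2) (m 2 : F) *
        he hD (chevF4.simple 3) (m 3 : F)) * xe hD s t *
      (he hD (chevF4.simple 0) (m 0 : F) * he hD (chevF4.simple 1) (m 1 : F) * he hD (chevF4.simple 2) (m 2 : F) *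
        he hD (chevF4.simple 3) (m 3 : F))⁻¹ =
      xe hD s (((m 0 ^ chevF4.cartan 0 s * m 1 ^ chevF4.cartan 1 s * m 2 ^ chevF4.cartan 2 s *
        m 3 ^ chevF4.cartan 3 s : Fˣ) : F) * t) := by
  set a := he hD (chevF4.simple 0) (m 0 : F)
  set b := he hD (chevF4.simple 1) (m 1 : F)
  set c := he hD (chevF4.simple 2) (m 2 : F)
  set d := he hD (chevF4.simple 3) (m 3 : F)
  calc (a * b * c * d) * xe hD s t * (a * b * c * d)⁻¹ = a * (b * (c * (d * xe hD s t * d⁻¹) * c⁻¹) * b⁻¹) * a⁻¹ := by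
        group
    _ = _ := by
      rw [he_conj hD (by decide : 3 < chevF4.rank) hs (m 3).ne_zero, he_conj hD (by decide : 2 < chevF4.rank) hs (m 2).ne_zero,
        he_conj hD (by decide : 1 < chevF4.rank) hs (m 1).ne_zero, he_conj hD (by decide : 0 < chevF4.rank) hs (m 0).ne_zero]
      congr 1
      push_cast
      ring

/-- the solution of the equations for the torus element -/
theorem solve {G : Type*} [CommGroup G] (c : Fin 4 → G) (m : Fin 4 → G)
    (hm0 : m 0 = c 0 ^ 2 * c 1 ^ 3 * c 2 ^ 2 * c 3) (hm1 : m 1 = c 0 ^ 3 * c 1 ^ 6 * c 2 ^ 4 * c 3 ^ 2)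
    (hm2 : m 2 = c 0 ^ 4 * c 1 ^ 8 * c 2 ^ 6 * c 3 ^ 3) (hm3 : m 3 = c 0 ^ 2 * c 1 ^ 4 * c 2 ^ 3 * c 3 ^ 2)
    (A : ℕ → ℕ → ℤ) (hA : ∀ i < 4, ∀ j < 4, A i j =
      (([[2, -1, 0, 0], [-1, 2, -2, 0], [0, -1, 2, -1], [0, 0, -1, 2]] : List (List ℤ)).getD i []).getD j 0)
    (i : Fin 4) : m 0 ^ A 0 i * m 1 ^ A 1 i * m 2 ^ A 2 i * m 3 ^ A 3 i = c i := by
  rw [hA 0 (by decide) i i.2, hA 1 (by decide) i i.2, hA 2 (by decide) i i.2, hA 3 (by decide) i i.2, hm0, hm1, hm2, hm3]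
  apply Additive.ofMul.injective
  fin_cases i <;>
  · simp only [ofMul_mul, ofMul_zpow, ofMul_pow]
    simp
    module

theorem exists_torus (c : Fin 4 → Fˣ) : ∃ h : K F,
    (∀ (i : Fin 4) (t : F), h * xe hD (chevF4.simple i) t * h⁻¹ = xe hD (chevF4.simple i) ((c i : F) * t)) ∧
    (∀ (i : Fin 4) (t : F), h * xe hD (chevF4.neg (chevF4.simple i)) t * h⁻¹ =
      xe hD (chevF4.neg (chevF4.simple i)) ((c i : F)⁻¹ * t)) := by
  let m : Fin 4 → Fˣ := ![c 0 ^ 2 * c 1 ^ 3 * c 2 ^ 2 * c 3, c 0 ^ 3 * c 1 ^ 6 * c 2 ^ 4 * c 3 ^ 2,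
    c 0 ^ 4 * c 1 ^ 8 * c 2 ^ 6 * c 3 ^ 3, c 0 ^ 2 * c 1 ^ 4 * c 2 ^ 3 * c 3 ^ 2]
  refine ⟨he hD (chevF4.simple 0) (m 0 : F) * he hD (chevF4.simple 1) (m 1 : F) * he hD (chevF4.simple 2) (m 2 : F) *
      he hD (chevF4.simple 3) (m 3 : F), fun i t => ?_, fun i t => ?_⟩
  · rw [prod_conj m (Cfsg.Agent.S1042.simple_lt hD i.2)]
    congr 3
    exact solve c m rfl rfl rfl rfl (fun i j => chevF4.cartan i (chevF4.simple j)) cartan_simple i
  · rw [prod_conj m (neg_simple_lt hD i.2), ← Units.val_inv_eq_inv_val]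
    congr 3
    have h1 := solve c m rfl rfl rfl rfl (fun i j => chevF4.cartan i (chevF4.simple j)) cartan_simple i
    rw [← h1, cartan_neg_simple 0 (by decide) i i.2, cartan_neg_simple 1 (by decide) i i.2,
      cartan_neg_simple 2 (by decide) i i.2, cartan_neg_simple 3 (by decide) i i.2, mul_inv, mul_inv, mul_inv,
      ← zpow_neg, ← zpow_neg, ← zpow_neg, ← zpow_neg, cartan_simple 0 (by decide) i i.2,
      cartan_simple 1 (by decide) i i.2, cartan_simple 2 (by decide) i i.2, cartan_simple 3 (by decide) i i.2]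

/-! ### the automorphisms -/

theorem bar_simple : ∀ i < 4, bar (chevF4.simple i) = chevF4.simple (3 - i) ∧
    bar (chevF4.neg (chevF4.simple i)) = chevF4.neg (chevF4.simple (3 - i)) := by decide +kernel

theorem flip4_val : ∀ i : Fin 4, ((flip4' i : Fin 4) : ℕ) = 3 - i := by decide

theorem lam_eq : ∀ r < 48, lam r = 1 ∨ lam r = 2 := by decide +kernel

theorem bar_bar : ∀ r < 48, bar (bar r) = r ∧ lam r * lam (bar r) = 2 ∧ bar r < 48 := by decide +kernel

theorem lam_surj [Finite F] [CharP F 2] {r : ℕ} (hr : r < 48) : Function.Surjective (fun t : F => t ^ lam r) := by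
  have : Fact (Nat.Prime 2) := ⟨Nat.prime_two⟩
  rcases lam_eq r hr with h | h
  · rw [h]
    intro x
    exact ⟨x, pow_one x⟩
  · rw [h]
    exact hperf 2

theorem IsGraph.perm [Finite F] [CharP F 2] {ρ : MulAut (K F)} (h : IsGraph ρ) : Perm chevF4 F ρ flip4 := by
  refine ⟨fun i => ?_, fun i => ?_⟩
  · have e : ((flip4 i : Fin chevF4.rank) : ℕ) = 3 - (i : ℕ) := flip4_val i
    have hi : chevF4.simple i < 48 := Cfsg.Agent.S1042.simple_lt hD i.2
    rw [e, ← (bar_simple i i.2).1]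
    exact smul_XX hD (φ := ρ) (lam_surj hi) fun t => h _ hi t
  · have e : ((flip4 i : Fin chevF4.rank) : ℕ) = 3 - (i : ℕ) := flip4_val i
    have hi : chevF4.neg (chevF4.simple i) < 48 := neg_simple_lt hD i.2
    rw [e, ← (bar_simple i i.2).2]
    exact smul_XX hD (φ := ρ) (lam_surj hi) fun t => h _ hi t

/-- the automorphisms fixing the root subgroups -/
theorem eq_of_perm_one {φ : MulAut (K F)} (hφ : Perm chevF4 F φ 1) :
    ∃ (h : K F) (τ : F ≃+* F) (α : MulAut (K F)), IsField α τ ∧ φ = MulAut.conj h * α := by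
  obtain ⟨c, σ, hc, h3, h4, h5⟩ := exists_field hD hφ
  obtain ⟨τ, hτ⟩ := sigma_eq hD (σ := σ) h5
  obtain ⟨α, hα⟩ := exists_isField τ
  obtain ⟨h, k1, k2⟩ := exists_torus (F := F) (fun i : Fin 4 => Units.mk0 (c i) (hc i))
  refine ⟨h, τ, α, hα, ?_⟩
  apply ext_values hD
  · intro i t
    have hi : chevF4.simple i < 48 := Cfsg.Agent.S1042.simple_lt hD i.2
    rw [h3, hτ, MulAut.mul_apply, MulAut.conj_apply, hα _ hi]
    exact (k1 i (τ t)).symm
  · intro i t
    have hi : chevF4.neg (chevF4.simple i) < 48 := neg_simple_lt hD i.2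
    rw [h4, hτ, MulAut.mul_apply, MulAut.conj_apply, hα _ hi]
    exact (k2 i (τ t)).symm

/-- **The automorphisms of `F₄(q)`.** -/
theorem aut_eq [Finite F] (ψ : MulAut (K F)) :
    ∃ (g : K F) (τ : F ≃+* F) (α : MulAut (K F)), IsField α τ ∧
      (ψ = MulAut.conj g * α ∨ (CharP F 2 ∧ ∃ ρ : MulAut (K F), IsGraph ρ ∧ ψ = MulAut.conj g * (ρ * α))) := by
  obtain ⟨x, π, -, -, h1, h2⟩ := exists_conj_perm (F := F) hD ψ
  have hφ : Perm chevF4 F (MulAut.conj x * ψ) π := ⟨h1, h2⟩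
  rcases realised_F4 (F := F) (π := π) ⟨_, hφ⟩ with rfl | rfl
  · obtain ⟨h, τ, α, hα, e⟩ := eq_of_perm_one hφ
    refine ⟨x⁻¹ * h, τ, α, hα, Or.inl ?_⟩
    rw [map_mul, map_inv, mul_assoc, ← e, inv_mul_cancel_left]
  · have h2 : (2 : F) = 0 := by
      by_contra h2
      exact flip4_not_mem h2 ⟨_, hφ⟩
    have hchar : CharP F 2 := CharTwo.of_one_ne_zero_of_two_eq_zero one_ne_zero h2
    obtain ⟨ρ, hρ⟩ := exists_isGraph (F := F)
    have h3 : Perm chevF4 F (ρ⁻¹ * (MulAut.conj x * ψ)) 1 := by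
      have := hρ.perm.inv.mul hφ
      rwa [inv_mul_cancel] at this
    obtain ⟨h, τ, α, hα, e⟩ := eq_of_perm_one h3
    refine ⟨x⁻¹ * ρ h, τ, α, hα, Or.inr ⟨hchar, ρ, hρ, ?_⟩⟩
    have e2 : MulAut.conj x * ψ = ρ * (MulAut.conj h * α) := by rw [← e, mul_inv_cancel_left]
    have e3 : MulAut.conj (ρ h) = ρ * MulAut.conj h * ρ⁻¹ := (conj_conj ρ h).symm
    rw [map_mul, map_inv, e3]
    calc ψ = (MulAut.conj x)⁻¹ * (MulAut.conj x * ψ) := by group
      _ = _ := by rw [e2]; group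

/-! ### `Out` is cyclic -/

theorem IsField.ext {α β : MulAut (K F)} {τ : F ≃+* F} (h : IsField α τ) (h' : IsField β τ) : α = β := by
  apply ext_values hD
  · intro i t
    have hi : chevF4.simple i < 48 := Cfsg.Agent.S1042.simple_lt hD i.2
    rw [h _ hi, h' _ hi]
  · intro i t
    have hi : chevF4.neg (chevF4.simple i) < 48 := neg_simple_lt hD i.2
    rw [h _ hi, h' _ hi]

theorem IsGraph.ext {α β : MulAut (K F)} (h : IsGraph α) (h' : IsGraph β) : α = β := by
  apply ext_values hD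
  · intro i t
    have hi : chevF4.simple i < 48 := Cfsg.Agent.S1042.simple_lt hD i.2
    rw [h _ hi, h' _ hi]
  · intro i t
    have hi : chevF4.neg (chevF4.simple i) < 48 := neg_simple_lt hD i.2
    rw [h _ hi, h' _ hi]

theorem IsField.mul {α β : MulAut (K F)} {σ τ : F ≃+* F} (h : IsField α σ) (h' : IsField β τ) :
    IsField (α * β) (σ * τ) := by
  intro r hr t
  rw [MulAut.mul_apply, h' r hr, h r hr]
  rfl

theorem IsField.one : IsField (1 : MulAut (K F)) (1 : F ≃+* F) := fun _ _ _ => rfl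

theorem IsField.inv {α : MulAut (K F)} {τ : F ≃+* F} (h : IsField α τ) : IsField α⁻¹ τ⁻¹ := by
  intro r hr t
  rw [MulAut.inv_def, MulEquiv.symm_apply_eq, h r hr]
  congr 1
  exact (τ.apply_symm_apply t).symm

theorem IsField.pow {α : MulAut (K F)} {τ : F ≃+* F} (h : IsField α τ) (n : ℕ) : IsField (α ^ n) (τ ^ n) := by
  induction n with
  | zero => exact IsField.one
  | succ n ih => rw [pow_succ, pow_succ]; exact ih.mul h

theorem IsField.zpow {α : MulAut (K F)} {τ : F ≃+* F} (h : IsField α τ) (n : ℤ) : IsField (α ^ n) (τ ^ n) := by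
  obtain ⟨m, rfl | rfl⟩ := n.eq_nat_or_neg
  · rw [zpow_natCast, zpow_natCast]; exact h.pow m
  · rw [zpow_neg, zpow_natCast, zpow_neg, zpow_natCast]; exact (h.pow m).inv

/-- the Frobenius automorphism -/
noncomputable def frob (F : Type u) [Field F] [Finite F] [CharP F 2] : F ≃+* F :=
  have : Fact (Nat.Prime 2) := ⟨Nat.prime_two⟩
  RingEquiv.ofBijective (frobenius F 2) ⟨frobenius_inj F 2, Finite.injective_iff_surjective.1 (frobenius_inj F 2)⟩

theorem frob_apply [Finite F] [CharP F 2] (t : F) : frob F t = t ^ 2 := rfl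

theorem IsGraph.sq [Finite F] [CharP F 2] {ρ : MulAut (K F)} (h : IsGraph ρ) : IsField (ρ ^ 2) (frob F) := by
  intro r hr t
  obtain ⟨h1, h2, h3⟩ := bar_bar r hr
  rw [pow_two, MulAut.mul_apply, h r hr, h _ h3, h1, ← pow_mul, h2, frob_apply]

theorem exists_frob_pow [Finite F] [CharP F 2] (τ : F ≃+* F) : ∃ n : ℕ, τ = frob F ^ n := by
  have : Fact (Nat.Prime 2) := ⟨Nat.prime_two⟩
  let _ : Algebra (ZMod 2) F := ZMod.algebra F 2
  let τ' : F ≃ₐ[ZMod 2] F := AlgEquiv.ofRingEquiv (f := τ) (by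
    intro x
    have : (τ : F →+* F).comp (algebraMap (ZMod 2) F) = algebraMap (ZMod 2) F := Subsingleton.elim _ _
    exact RingHom.congr_fun this x)
  obtain ⟨n, hn⟩ := (FiniteField.bijective_frobeniusAlgEquivOfAlgebraic_pow (ZMod 2) F).2 τ'
  refine ⟨n, RingEquiv.ext fun x => ?_⟩
  have h1 : τ x = (FiniteField.frobeniusAlgEquivOfAlgebraic (ZMod 2) F ^ (n : ℕ)) x :=
    (DFunLike.congr_fun hn x).symm
  rw [h1]
  have h2 : ∀ (m : ℕ) (x : F), (FiniteField.frobeniusAlgEquivOfAlgebraic (ZMod 2) F ^ m) x = (frob F ^ m) x := by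
    intro m
    induction m with
    | zero => intro x; rfl
    | succ m ih =>
      intro x
      rw [pow_succ, pow_succ]
      show (FiniteField.frobeniusAlgEquivOfAlgebraic (ZMod 2) F ^ m) (FiniteField.frobeniusAlgEquivOfAlgebraic (ZMod 2) F x) =
        (frob F ^ m) (frob F x)
      rw [ih, frob_apply]
      rw [FiniteField.coe_frobeniusAlgEquivOfAlgebraic, ZMod.card]
  exact h2 n x

/-- **`Out(F₄(q))` is cyclic.** -/
theorem exists_gen [Finite F] : ∃ γ : MulAut (K F), ∀ ψ : MulAut (K F), ∃ (g : K F) (n : ℤ),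
    ψ = MulAut.conj g * γ ^ n := by
  by_cases hchar : CharP F 2
  · obtain ⟨ρ, hρ⟩ := exists_isGraph (F := F)
    refine ⟨ρ, fun ψ => ?_⟩
    obtain ⟨g, τ, α, hα, h⟩ := aut_eq ψ
    obtain ⟨n, rfl⟩ := exists_frob_pow τ
    have h1 : α = ρ ^ (2 * n) := by
      rw [pow_mul]
      exact hα.ext (hρ.sq.pow n)
    rcases h with rfl | ⟨-, ρ', hρ', rfl⟩
    · exact ⟨g, (2 * n : ℕ), by rw [zpow_natCast, h1]⟩
    · refine ⟨g, (1 + 2 * n : ℕ), ?_⟩
      rw [zpow_natCast, pow_add, pow_one, h1, hρ'.ext hρ]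
  · have hcyc : IsCyclic (F ≃+* F) := LieRecognition.FieldSemilinear.isCyclic_ringAut F
    obtain ⟨τ, hτ⟩ := IsCyclic.exists_generator (α := F ≃+* F)
    obtain ⟨α, hα⟩ := exists_isField τ
    refine ⟨α, fun ψ => ?_⟩
    obtain ⟨g, σ, β, hβ, h⟩ := aut_eq ψ
    rcases h with rfl | ⟨h, -⟩
    · obtain ⟨n, rfl⟩ := hτ σ
      exact ⟨g, n, by rw [hβ.ext (hα.zpow n)]⟩
    · exact absurd h hchar

instance isCyclic_out [Finite F] : IsCyclic (Cfsg.Out (K F)) := by
  obtain ⟨γ, hγ⟩ := exists_gen (F := F)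
  refine ⟨⟨QuotientGroup.mk γ, fun x => ?_⟩⟩
  obtain ⟨ψ, rfl⟩ := QuotientGroup.mk_surjective x
  obtain ⟨g, n, rfl⟩ := hγ ψ
  refine ⟨n, ?_⟩
  show (QuotientGroup.mk γ : Cfsg.Out (K F)) ^ n = _
  rw [QuotientGroup.mk_mul, ← QuotientGroup.mk_zpow]
  have : (QuotientGroup.mk (MulAut.conj g) : Cfsg.Out (K F)) = 1 := by
    rw [QuotientGroup.eq_one_iff]
    exact ⟨g, rfl⟩
  rw [this, one_mul]

/-! ### the pairs -/

theorem exists_gen_ne_one [Finite F] (hq : ∃ x : F, x ≠ 0 ∧ x ≠ 1) :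
    ∃ k : Fˣ, (∀ x : Fˣ, x ∈ Subgroup.zpowers k) ∧ (k : F) ≠ 1 := by
  obtain ⟨k, hk'⟩ := IsCyclic.exists_generator (α := Fˣ)
  refine ⟨k, hk', ?_⟩
  intro h0
  obtain ⟨x, hx0, hx1⟩ := hq
  have hk2 : k = 1 := Units.ext h0
  obtain ⟨n, hn⟩ := hk' (Units.mk0 x hx0)
  have hn' : k ^ n = Units.mk0 x hx0 := hn
  rw [hk2, one_zpow] at hn'
  exact hx1 (congrArg Units.val hn').symm

theorem coprime_card_units [Finite F] {p : ℕ} (hp : p.Prime) [CharP F p] : Nat.Coprime (Nat.card Fˣ) p := by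
  have : Fintype F := Fintype.ofFinite F
  rw [Nat.card_units, Nat.card_eq_fintype_card]
  have h3 : p ∣ Fintype.card F := (CharP.cast_eq_zero_iff F p _).1 (Nat.cast_card_eq_zero F)
  have h4 : 0 < Fintype.card F := Fintype.card_pos
  refine Nat.Coprime.symm ((Nat.Prime.coprime_iff_not_dvd hp).2 fun h5 => ?_)
  have h6 : p ∣ 1 := by
    have := Nat.dvd_sub h3 h5
    have e : Fintype.card F - (Fintype.card F - 1) = 1 := by omega
    rwa [e] at this
  exact hp.one_lt.ne' (Nat.dvd_one.1 h6)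

theorem he_pow {i : ℕ} (hi : i < 4) (k : Fˣ) : he hD (chevF4.simple i) (k : F) ^ Nat.card Fˣ = 1 := by
  apply Subtype.ext
  rw [SubmonoidClass.coe_pow, coe_he, hG_eq_hh hD hi, ← map_pow, pow_card_eq_one', map_one]
  rfl

/-- the word and the field automorphism -/
theorem pair_field [Finite F] (hq : ∃ x : F, x ≠ 0 ∧ x ≠ 1) {α : MulAut (K F)} {τ : F ≃+* F} (hα : IsField α τ) :
    ∃ (p : MulAut (K F)) (g : K F), p ∈ Cfsg.Inn (K F) ∧ Cfsg.Inn (K F) ≤ Subgroup.closure {p, MulAut.conj g * α} := by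
  obtain ⟨k, hk, hk1⟩ := exists_gen_ne_one hq
  obtain ⟨p, hp⟩ := CharP.exists F
  have hpp : Nat.Prime p := (CharP.char_is_prime_or_zero F p).resolve_right (CharP.char_ne_zero_of_finite F p)
  obtain ⟨c, -, hw⟩ := isMono_word (F := F) hD (l := [0, 1, 2, 3]) (by decide +kernel)
    (W := wT Cfsg.Agent.ChevalleyStructure.W0Small.tabF4 [0, 1, 2, 3])
    (wT_eq hD Cfsg.Agent.ChevalleyStructure.W0Small.tabF4_ok (by decide +kernel))
  have hY := hw.mul (isMono_field (hD := hD) hα)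
  have hH := isDiag_he (F := F) hD (i := 0) (by decide) k
  refine ⟨MulAut.conj (he hD (chevF4.simple 0) (k : F)) * MulAut.conj (xe hD 21 (1 : F)),
    xe hD 7 (1 : F) * we hD F [0, 1, 2, 3], mul_mem ⟨_, rfl⟩ ⟨_, rfl⟩, ?_⟩
  have c7 : chevF4.cartan 0 7 = 1 := by decide +kernel
  have c3 : chevF4.cartan 0 3 = -1 := by decide +kernel
  have c21 : chevF4.cartan 0 21 = 0 := by decide +kernel
  have c15 : chevF4.cartan 0 15 = 2 := by decide +kernel
  refine range_le_of_pair' hH hY (a := 7) (a' := 3) (b := 21) (b' := 15) (by decide) (by decide +kernel) (by decide)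
    (by decide +kernel) ?_ ?_ ?_ ?_ ?_ (N := Nat.card Fˣ) (p := p) ?_ (CharP.cast_eq_zero F p) (coprime_card_units hpp)
    (steps := bigStepsF4) (by decide +kernel) (Subgroup.subset_closure (by simp)) (Subgroup.subset_closure ?_)
  · show Irr ((k : F) ^ chevF4.cartan 0 7)
    rw [c7]; exact irr_zpow hk (by simp)
  · show (k : F) ^ chevF4.cartan 0 7 ≠ 1
    rw [c7, zpow_one]; exact hk1
  · show (k : F) ^ chevF4.cartan 0 3 ≠ 1
    rw [c3, zpow_neg, zpow_one]
    exact fun h => hk1 (inv_eq_one.1 h)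
  · show (k : F) ^ chevF4.cartan 0 21 = 1
    rw [c21, zpow_zero]
  · show Irr ((k : F) ^ chevF4.cartan 0 15)
    rw [c15]; exact irr_zpow hk (by simp)
  · rw [← map_pow, he_pow (by decide), map_one]
  · right
    rw [Set.mem_singleton_iff, map_mul, mul_assoc]

/-- closure steps, type F4, characteristic two, exceptional graph automorphism -/
def graphSteps : List (ℕ × ℕ) :=
  [(2, 2), (3, 3), (0, 0), (7, 7), (1, 1), (8, 8), (15, 15), (19, 19), (22, 22), (34, 34), (42, 42), (38, 38), (45, 45),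
    (44, 44), (47, 47), (40, 40), (46, 46), (39, 39), (32, 32), (28, 28), (25, 25), (13, 13), (5, 5), (0, 45), (21, 21),
    (33, 33), (24, 24), (27, 27), (41, 41), (36, 36), (31, 31), (37, 37), (43, 43), (29, 29), (30, 30), (35, 35),
    (26, 26), (14, 14), (23, 23), (20, 20), (6, 6), (11, 11), (16, 16), (10, 10), (4, 4), (18, 18), (17, 17)]

/-- the action of the word times the graph automorphism -/
abbrev BG (r : ℕ) : ℕ := wT Cfsg.Agent.ChevalleyStructure.W0Small.tabF4 [0, 1] (bar r)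

theorem run_graph : run chevF4 BG (1 <<< 2) graphSteps = 2 ^ chevF4.nroots - 1 := by decide +kernel

theorem isMono_graph [Finite F] [CharP F 2] {ρ : MulAut (K F)} (h : IsGraph ρ) :
    IsMono hD ρ bar (fun _ => 1) (fun r => if lam r = 1 then RingEquiv.refl F else frob F) where
  lt r hr := (bar_bar r hr).2.2
  surj r hr := ⟨bar r, (bar_bar r hr).2.2, (bar_bar r hr).1⟩
  ne _ _ := one_ne_zero
  val r hr t := by
    rw [h r hr, one_mul]
    rcases lam_eq r hr with h1 | h1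
    · rw [if_pos h1, h1, pow_one]; rfl
    · rw [if_neg (by omega), h1, frob_apply]

theorem pair_graph [Finite F] [CharP F 2] {ρ α : MulAut (K F)} {τ : F ≃+* F} (hρ : IsGraph ρ) (hα : IsField α τ) :
    ∃ (p : MulAut (K F)) (g : K F), p ∈ Cfsg.Inn (K F) ∧
      Cfsg.Inn (K F) ≤ Subgroup.closure {p, MulAut.conj g * (ρ * α)} := by
  obtain ⟨c, -, hw⟩ := isMono_word (F := F) hD (l := [0, 1]) (by decide +kernel)
    (W := wT Cfsg.Agent.ChevalleyStructure.W0Small.tabF4 [0, 1])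
    (wT_eq hD Cfsg.Agent.ChevalleyStructure.W0Small.tabF4_ok (by decide +kernel))
  have hY := hw.mul ((isMono_graph hρ).mul (isMono_field (hD := hD) hα))
  by_cases hq : ∃ x : F, x ≠ 0 ∧ x ≠ 1
  · obtain ⟨k, hk, hk1⟩ := exists_gen_ne_one hq
    have hH := isDiag_he (F := F) hD (i := 2) (by decide) k
    have c2 : chevF4.cartan 2 2 = 1 := by decide +kernel
    have c9 : chevF4.cartan 2 9 = 1 := by decide +kernel
    refine ⟨MulAut.conj (he hD (chevF4.simple 2) (k : F)), xe hD 2 (1 : F) * we hD F [0, 1], ⟨_, rfl⟩, ?_⟩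
    refine range_le_of_pair hH hY (a := 2) (a' := 9) (by decide) (by decide +kernel) ?_ ?_ ?_ (steps := graphSteps)
      run_graph (Subgroup.subset_closure (by simp)) (Subgroup.subset_closure ?_)
    · show Irr ((k : F) ^ chevF4.cartan 2 2)
      rw [c2]; exact irr_zpow hk (by simp)
    · show (k : F) ^ chevF4.cartan 2 2 ≠ 1
      rw [c2, zpow_one]; exact hk1
    · show (k : F) ^ chevF4.cartan 2 9 ≠ 1
      rw [c9, zpow_one]; exact hk1
    · right
      rw [Set.mem_singleton_iff, map_mul, mul_assoc]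
  · -- the field with two elements
    push Not at hq
    have hF : ∀ x : F, x = 0 ∨ x = 1 := fun x => or_iff_not_imp_left.2 (hq x)
    refine ⟨MulAut.conj (xe hD 2 (1 : F)), we hD F [0, 1], ⟨_, rfl⟩, ?_⟩
    refine range_le_of_run hY (Subgroup.subset_closure (by simp)) (S := 1 <<< 2) ?_ run_graph
    intro k hk t
    rw [Nat.one_shiftLeft, Nat.testBit_two_pow] at hk
    have : 2 = k := by simpa using hk
    subst this
    rcases hF t with rfl | rfl
    · rw [xe_zero, map_one]; exact one_mem _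
    · exact Subgroup.subset_closure (by simp)

/-- the field with two elements, no outer automorphism -/
theorem pair_two [CharP F 2] (hF : ∀ x : F, x = 0 ∨ x = 1) :
    ∃ (p : MulAut (K F)) (g : K F), p ∈ Cfsg.Inn (K F) ∧ Cfsg.Inn (K F) ≤ Subgroup.closure {p, MulAut.conj g} := by
  obtain ⟨a, b, h⟩ := H136.TwoGen.of_ambient _ (twoF4 hF)
  refine ⟨MulAut.conj a, b, ⟨_, rfl⟩, ?_⟩
  have h1 := congrArg (Subgroup.map MulAut.conj) h
  rw [MonoidHom.map_closure, Set.image_pair, ← MonoidHom.range_eq_map] at h1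
  exact h1.ge

/-- **The pairs, for all automorphisms.** -/
theorem exists_pair [Finite F] (ψ : MulAut (K F)) : ∃ p ∈ Cfsg.Inn (K F), ∃ n ∈ Cfsg.Inn (K F),
    Cfsg.Inn (K F) ≤ Subgroup.closure {p, n * ψ} := by
  obtain ⟨g0, τ, α, hα, h⟩ := aut_eq ψ
  have key : ∀ β : MulAut (K F), ψ = MulAut.conj g0 * β →
      (∃ (p : MulAut (K F)) (g : K F), p ∈ Cfsg.Inn (K F) ∧ Cfsg.Inn (K F) ≤ Subgroup.closure {p, MulAut.conj g * β}) →
      ∃ p ∈ Cfsg.Inn (K F), ∃ n ∈ Cfsg.Inn (K F), Cfsg.Inn (K F) ≤ Subgroup.closure {p, n * ψ} := by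
    rintro β rfl ⟨p, g, hp, h⟩
    refine ⟨p, hp, MulAut.conj (g * g0⁻¹), ⟨_, rfl⟩, ?_⟩
    rwa [← mul_assoc, ← map_mul, inv_mul_cancel_right]
  rcases h with h | ⟨hchar, ρ, hρ, h⟩
  · refine key α h ?_
    by_cases hq : ∃ x : F, x ≠ 0 ∧ x ≠ 1
    · exact pair_field hq hα
    · push Not at hq
      have hF : ∀ x : F, x = 0 ∨ x = 1 := fun x => or_iff_not_imp_left.2 (hq x)
      have h2 : (2 : F) = 0 := by
        rcases hF 2 with h | h
        · exact h
        · exfalso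
          have : (1 : F) = 0 := by linear_combination h
          exact one_ne_zero this
      have hchar : CharP F 2 := CharTwo.of_one_ne_zero_of_two_eq_zero one_ne_zero h2
      have hτ : IsField (1 : MulAut (K F)) τ := by
        intro r hr t
        rcases hF t with rfl | rfl
        · rw [map_zero]; rfl
        · rw [map_one]; rfl
      rw [hα.ext hτ]
      obtain ⟨p, g, hp, h⟩ := pair_two (F := F) hF
      exact ⟨p, g, hp, by rwa [mul_one]⟩
  · exact key _ h (pair_graph hρ hα)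

end Cfsg.Agent.H95.DG.F4
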