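import Cfsg.Agent.H135.TwoGen
import Cfsg.Agent.H70.OutCount

/-!
# Twisted Steinberg pairs in `Aut` of an (untwisted, tabulated) Chevalley group (helper95)

General tools, for all `D` in the list, `K = D.group F`:

* `IsMono hD Y B c τ` : the automorphism `Y` maps `x_r(t)` to `x_{B r}(c_r τ_r(t))`;
  `IsDiag hD H χ` : the automorphism `H` maps `x_r(t)` to `x_r(χ_r t)`;
* `top_of_run` : closure steps (`H135.TwoG.run`) for a subgroup of `K` closed under `B`;
* `range_le_of_pair` : `Inn K ≤ ⟨H, conj (x_a(1)) Y⟩`, `H` diagonal, `Y` monomial;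
* `range_le_of_pair'` : `Inn K ≤ ⟨H conj (x_b(1)), conj (x_a(1)) Y⟩`;
* `isMono_word`, `isMono_field`, `IsMono.mul` : the monomial automorphisms.
-/

set_option autoImplicit false

namespace Cfsg.Agent.H95.DG.Mono

open Cfsg Cfsg.Lie Cfsg.Agent.ChevalleyStructure.Elts Cfsg.Agent.Schreier.ChevLocal
open Cfsg.Agent.H70.ChevFix Cfsg.Agent.H70.ChevField Cfsg.Agent.H70.OutCount Cfsg.Agent.H135.TwoG

universe u

variable {F : Type u} [Field F] {D : ChevalleyDatum}

/-! ### monomial automorphisms -/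

/-- `Y` maps `x_r(t)` to `x_{B r}(c_r τ_r(t))` -/
structure IsMono (hD : InList D) (Y : MulAut ↥(D.group F)) (B : ℕ → ℕ) (c : ℕ → F) (τ : ℕ → (F ≃+* F)) : Prop where
  lt : ∀ r < D.nroots, B r < D.nroots
  surj : ∀ r < D.nroots, ∃ s < D.nroots, B s = r
  ne : ∀ r < D.nroots, c r ≠ 0
  val : ∀ r < D.nroots, ∀ t : F, Y (xe hD r t) = xe hD (B r) (c r * τ r t)

/-- `H` maps `x_r(t)` to `x_r(χ_r t)` -/
structure IsDiag (hD : InList D) (H : MulAut ↥(D.group F)) (χ : ℕ → F) : Prop where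
  ne : ∀ r < D.nroots, χ r ≠ 0
  val : ∀ r < D.nroots, ∀ t : F, H (xe hD r t) = xe hD r (χ r * t)

theorem IsMono.mul {hD : InList D} {Y Y' : MulAut ↥(D.group F)} {B B' : ℕ → ℕ} {c c' : ℕ → F}
    {τ τ' : ℕ → (F ≃+* F)} (h : IsMono hD Y B c τ) (h' : IsMono hD Y' B' c' τ') :
    IsMono hD (Y * Y') (fun r => B (B' r)) (fun r => c (B' r) * τ (B' r) (c' r))
      (fun r => (τ' r).trans (τ (B' r))) where
  lt r hr := h.lt _ (h'.lt r hr)
  surj r hr := by
    obtain ⟨s, hs, rfl⟩ := h.surj r hr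
    obtain ⟨s', hs', rfl⟩ := h'.surj s hs
    exact ⟨s', hs', rfl⟩
  ne r hr := mul_ne_zero (h.ne _ (h'.lt r hr)) ((map_ne_zero_iff _ (τ (B' r)).injective).2 (h'.ne r hr))
  val r hr t := by
    rw [MulAut.mul_apply, h'.val r hr, h.val _ (h'.lt r hr), map_mul, mul_assoc]
    rfl

theorem isMono_field {hD : InList D} {α : MulAut ↥(D.group F)} {τ : F ≃+* F}
    (h : ∀ r < D.nroots, ∀ t : F, α (xe hD r t) = xe hD r (τ t)) :
    IsMono hD α (fun r => r) (fun _ => 1) (fun _ => τ) where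
  lt _ hr := hr
  surj r hr := ⟨r, hr, rfl⟩
  ne _ _ := one_ne_zero
  val r hr t := by rw [h r hr, one_mul]

theorem IsDiag.mono {hD : InList D} {H : MulAut ↥(D.group F)} {χ : ℕ → F} (h : IsDiag hD H χ) :
    IsMono hD H (fun r => r) χ (fun _ => RingEquiv.refl F) where
  lt _ hr := hr
  surj r hr := ⟨r, hr, rfl⟩
  ne r hr := h.ne r hr
  val r hr t := h.val r hr t

theorem wact_surj (hD : InList D) {l : List ℕ} (hl : ∀ i ∈ l, i < D.rank) :
    ∀ r < D.nroots, ∃ s < D.nroots, wact D l s = r := by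
  induction l with
  | nil => intro r hr; exact ⟨r, hr, rfl⟩
  | cons i l ih =>
    intro r hr
    have hi := hl i List.mem_cons_self
    obtain ⟨s, hs, e⟩ := ih (fun j hj => hl j (List.mem_cons_of_mem _ hj)) _
      (Cfsg.Agent.ChevalleyStructure.Reach.reflect_lt hD hi hr)
    refine ⟨s, hs, ?_⟩
    show D.reflectRoot i (wact D l s) = r
    rw [e, Cfsg.Agent.ChevalleyStructure.Reach.reflect_reflect hD hi hr]

/-- the word, as an element of the group -/
def we (hD : InList D) (F : Type u) [Field F] (l : List ℕ) : ↥(D.group F) := ⟨wG hD F l, wG_mem_group hD l⟩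

/-- conjugation by a word in the simple `n`'s is monomial -/
theorem isMono_word (hD : InList D) {l : List ℕ} (hl : ∀ i ∈ l, i < D.rank) {W : ℕ → ℕ}
    (hW : ∀ s < D.nroots, W s = wact D l s) :
    ∃ c : ℕ → F, (∀ r < D.nroots, c r = 1 ∨ c r = -1) ∧
      IsMono hD (MulAut.conj (we hD F l)) W c (fun _ => RingEquiv.refl F) := by
  classical
  have h1 : ∀ r : ℕ, ∃ c : F, r < D.nroots → ((c = 1 ∨ c = -1) ∧
      ∀ t : F, wG hD F l * xG hD r t * (wG hD F l)⁻¹ = xG hD (wact D l r) (c * t)) := by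
    intro r
    by_cases hr : r < D.nroots
    · obtain ⟨η, hη, h⟩ := wG_conj (F := F) hD hl hr
      exact ⟨η, fun _ => ⟨hη, h⟩⟩
    · exact ⟨0, fun h => absurd h hr⟩
  choose c hc using h1
  refine ⟨c, fun r hr => (hc r hr).1, ?_⟩
  refine ⟨fun r hr => ?_, fun r hr => ?_, fun r hr => ?_, fun r hr t => ?_⟩
  · rw [hW r hr]; exact wact_lt hD hl hr
  · obtain ⟨s, hs, e⟩ := wact_surj hD hl r hr
    exact ⟨s, hs, by rw [hW s hs, e]⟩
  · rcases (hc r hr).1 with h | h <;> rw [h]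
    · exact one_ne_zero
    · exact neg_ne_zero.2 one_ne_zero
  · rw [hW r hr, MulAut.conj_apply]
    exact Subtype.ext ((hc r hr).2 t)

/-- conjugation by `h_{p_i}(k)` is diagonal -/
theorem isDiag_he (hD : InList D) {i : ℕ} (hi : i < D.rank) (k : Fˣ) :
    IsDiag hD (MulAut.conj (he hD (D.simple i) (k : F))) (fun r => (k : F) ^ D.cartan i r) where
  ne r _ := zpow_ne_zero _ k.ne_zero
  val r hr t := by rw [MulAut.conj_apply, he_conj hD hi hr k.ne_zero]

/-- diagonal automorphisms commute -/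
theorem IsDiag.comm {hD : InList D} {H H' : MulAut ↥(D.group F)} {χ χ' : ℕ → F} (h : IsDiag hD H χ)
    (h' : IsDiag hD H' χ') : H * H' = H' * H := by
  apply ext_values hD
  · intro i t
    have hi := Cfsg.Agent.S1042.simple_lt hD i.2
    rw [MulAut.mul_apply, MulAut.mul_apply, h'.val _ hi, h.val _ hi, h.val _ hi, h'.val _ hi]
    congr 1; ring
  · intro i t
    have hi : D.neg (D.simple i) < D.nroots := neg_simple_lt hD i.2
    rw [MulAut.mul_apply, MulAut.mul_apply, h'.val _ hi, h.val _ hi, h.val _ hi, h'.val _ hi]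
    congr 1; ring

/-- a conjugate of a diagonal automorphism under a monomial one -/
theorem IsDiag.conj_mono {hD : InList D} {H Y : MulAut ↥(D.group F)} {χ : ℕ → F} (h : IsDiag hD H χ) {B : ℕ → ℕ}
    {c : ℕ → F} {τ : ℕ → (F ≃+* F)} (hY : IsMono hD Y B c τ) {s : ℕ} (hs : s < D.nroots) (t : F) :
    (Y * H * Y⁻¹) (xe hD (B s) t) = xe hD (B s) (τ s (χ s) * t) := by
  have e : Y⁻¹ (xe hD (B s) t) = xe hD s ((τ s).symm ((c s)⁻¹ * t)) := by
    rw [MulAut.inv_def, MulEquiv.symm_apply_eq, hY.val s hs, RingEquiv.apply_symm_apply,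
      mul_inv_cancel_left₀ (hY.ne s hs)]
  rw [MulAut.mul_apply, MulAut.mul_apply, e, h.val s hs, hY.val s hs, map_mul, RingEquiv.apply_symm_apply]
  congr 1
  have := hY.ne s hs
  field_simp

theorem IsDiag.conj_mono' {hD : InList D} {H Y : MulAut ↥(D.group F)} {χ : ℕ → F} (h : IsDiag hD H χ) {B : ℕ → ℕ}
    {c : ℕ → F} {τ : ℕ → (F ≃+* F)} (hY : IsMono hD Y B c τ) :
    ∃ χ' : ℕ → F, IsDiag hD (Y * H * Y⁻¹) χ' := by
  classical
  have h1 : ∀ r : ℕ, ∃ x : F, r < D.nroots → x ≠ 0 ∧ ∀ t : F, (Y * H * Y⁻¹) (xe hD r t) = xe hD r (x * t) := by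
    intro r
    by_cases hr : r < D.nroots
    · obtain ⟨s, hs, rfl⟩ := hY.surj r hr
      exact ⟨τ s (χ s), fun _ => ⟨(map_ne_zero_iff _ (τ s).injective).2 (h.ne s hs), h.conj_mono hY hs⟩⟩
    · exact ⟨0, fun h => absurd h hr⟩
  choose χ' hχ' using h1
  exact ⟨χ', ⟨fun r hr => (hχ' r hr).1, fun r hr => (hχ' r hr).2⟩⟩

/-! ### closure steps -/

/-- `Has` inside the group -/
theorem has_map {hD : InList D} {M : Subgroup ↥(D.group F)} {r : ℕ} :
    Has hD (M.map (D.group F).subtype) r ↔ ∀ t : F, xe hD r t ∈ M := by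
  constructor
  · intro h t
    obtain ⟨x, hx, hx'⟩ := h t
    have : x = xe hD r t := Subtype.ext hx'
    exact this ▸ hx
  · intro h t
    exact ⟨_, h t, rfl⟩

theorem step_sound {hD : InList D} {M : Subgroup (GL D.Idx F)} {W : ℕ → ℕ}
    (hrot : ∀ s < D.nroots, Has hD M s → Has hD M (W s)) {S : ℕ} (hS : ∀ k, Nat.testBit S k = true → Has hD M k)
    (p : ℕ × ℕ) : ∀ k, Nat.testBit (step D W S p) k = true → Has hD M k := by
  intro k hk
  unfold step at hk
  split_ifs at hk with h1 h2 h3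
  · rcases testBit_insert hk with h | rfl
    · exact hS k h
    · exact hrot _ h2.2 (hS _ h2.1)
  · exact hS k hk
  · obtain ⟨ha, hb, hr, hs, hneg⟩ := h3
    split at hk
    · rename_i e he
      split_ifs at hk with hg
      · rcases testBit_insert hk with h | rfl
        · exact hS k h
        · intro v
          obtain ⟨t, u, rfl⟩ := good_spec (F := F) hg v
          have hm := comm_mem hD hr hs (Ne.symm h1) hneg (t := t) (u := u) (hS _ ha t) (hS _ hb u)
          exact mem_of_filter hD (P := fun k => Nat.testBit S k) hS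
            (fun c : ℤ × ℕ × ℕ => (c.1 : F) * (-t) ^ c.2.1 * u ^ c.2.2) _ he hm
      · exact hS k hk
    · exact hS k hk
  · exact hS k hk

theorem run_sound {hD : InList D} {M : Subgroup (GL D.Idx F)} {W : ℕ → ℕ}
    (hrot : ∀ s < D.nroots, Has hD M s → Has hD M (W s)) (steps : List (ℕ × ℕ)) :
    ∀ {S : ℕ} (_ : ∀ k, Nat.testBit S k = true → Has hD M k),
      ∀ k, Nat.testBit (run D W S steps) k = true → Has hD M k := by
  induction steps with
  | nil => intro S hS; exact hS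
  | cons p steps ih =>
    intro S hS
    exact ih (step_sound hrot hS p)

/-- A subgroup of `K` containing the root groups of `S`, closed under `W`, is the whole group if the closure steps reach
all roots. -/
theorem top_of_run {hD : InList D} {M : Subgroup ↥(D.group F)} {W : ℕ → ℕ}
    (hrot : ∀ s < D.nroots, (∀ t : F, xe hD s t ∈ M) → ∀ t : F, xe hD (W s) t ∈ M) {S : ℕ}
    (hS : ∀ k, Nat.testBit S k = true → ∀ t : F, xe hD k t ∈ M) {steps : List (ℕ × ℕ)}
    (h : run D W S steps = 2 ^ D.nroots - 1) : M = ⊤ := by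
  have hle : D.group F ≤ M.map (D.group F).subtype := by
    rw [group_le_iff hD]
    intro r hr
    refine run_sound (hD := hD) (W := W) (fun s hs h1 => has_map.2 (hrot s hs (has_map.1 h1))) steps
      (S := S) (fun k hk => has_map.2 (hS k hk)) r ?_
    rw [h, Nat.testBit_two_pow_sub_one]
    exact decide_eq_true hr
  rw [eq_top_iff]
  intro x _
  obtain ⟨y, hy, hy'⟩ := hle x.2
  have : y = x := Subtype.ext hy'
  exact this ▸ hy

/-- The same for a subgroup of `Aut K` containing a monomial automorphism `Y`. -/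
theorem range_le_of_run {hD : InList D} {M : Subgroup (MulAut ↥(D.group F))} {Y : MulAut ↥(D.group F)} {B : ℕ → ℕ}
    {c : ℕ → F} {τ : ℕ → (F ≃+* F)} (hY : IsMono hD Y B c τ) (hYM : Y ∈ M) {S : ℕ}
    (hS : ∀ k, Nat.testBit S k = true → ∀ t : F, MulAut.conj (xe hD k t) ∈ M) {steps : List (ℕ × ℕ)}
    (h : run D B S steps = 2 ^ D.nroots - 1) :
    (MulAut.conj : ↥(D.group F) →* MulAut ↥(D.group F)).range ≤ M := by
  have htop : M.comap MulAut.conj = ⊤ := by
    refine top_of_run (hD := hD) (W := B) (S := S) (steps := steps) ?_ hS h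
    intro s hs h1 t
    show MulAut.conj (xe hD (B s) t) ∈ M
    have e : xe hD (B s) t = Y (xe hD s ((τ s).symm ((c s)⁻¹ * t))) := by
      rw [hY.val s hs, RingEquiv.apply_symm_apply, mul_inv_cancel_left₀ (hY.ne s hs)]
    have e2 : MulAut.conj (xe hD (B s) t) = Y * MulAut.conj (xe hD s ((τ s).symm ((c s)⁻¹ * t))) * Y⁻¹ := by
      rw [e]
      ext x : 1
      simp only [MulAut.mul_apply, MulAut.conj_apply, map_mul, map_inv, MulAut.apply_inv_self]
    rw [e2]
    exact M.mul_mem (M.mul_mem hYM (h1 _)) (M.inv_mem hYM)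
  rintro _ ⟨g, rfl⟩
  have : g ∈ M.comap MulAut.conj := by rw [htop]; exact Subgroup.mem_top g
  exact this

/-! ### the torus trick -/

/-- the coefficients -/
def cf (hD : InList D) (M : Subgroup (MulAut ↥(D.group F))) (r : ℕ) : AddSubgroup F where
  carrier := {t | MulAut.conj (xe hD r t) ∈ M}
  zero_mem' := by
    show MulAut.conj (xe hD r 0) ∈ M
    rw [xe_zero, map_one]; exact M.one_mem
  add_mem' := by
    intro a b ha hb
    show MulAut.conj (xe hD r (a + b)) ∈ M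
    rw [xe_add, map_mul]; exact M.mul_mem ha hb
  neg_mem' := by
    intro a ha
    show MulAut.conj (xe hD r (-a)) ∈ M
    rw [xe_neg, map_inv]; exact M.inv_mem ha

/-- multiplication by `x` is irreducible on `F` -/
def Irr (x : F) : Prop := ∀ A : AddSubgroup F, (∀ t ∈ A, x * t ∈ A) → A = ⊥ ∨ A = ⊤

theorem conj_conj {G : Type*} [Group G] (Y : MulAut G) (x : G) : Y * MulAut.conj x * Y⁻¹ = MulAut.conj (Y x) := by
  ext y : 1
  simp only [MulAut.mul_apply, MulAut.conj_apply, map_mul, map_inv, MulAut.apply_inv_self]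

/-- **The torus trick in `Aut K`.** -/
theorem trick {hD : InList D} {H Y : MulAut ↥(D.group F)} {χ : ℕ → F} (hH : IsDiag hD H χ) {B : ℕ → ℕ} {c : ℕ → F}
    {τ : ℕ → (F ≃+* F)} (hY : IsMono hD Y B c τ) {a' : ℕ} (ha' : a' < D.nroots) (irr : Irr (χ (B a')))
    (h1 : χ (B a') ≠ 1) (h2 : χ a' ≠ 1) {M : Subgroup (MulAut ↥(D.group F))} (hHM : H ∈ M)
    (hYM : MulAut.conj (xe hD (B a') (1 : F)) * Y ∈ M) : (∀ t : F, MulAut.conj (xe hD (B a') t) ∈ M) ∧ Y ∈ M := by
  set a := B a' with ha0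
  have ha : a < D.nroots := hY.lt _ ha'
  set X : Subgroup (MulAut ↥(D.group F)) := (XX D F a).map MulAut.conj with hX
  have memX : ∀ x : MulAut ↥(D.group F), x ∈ X ↔ ∃ t : F, x = MulAut.conj (xe hD a t) := by
    intro x
    rw [hX, Subgroup.mem_map]
    constructor
    · rintro ⟨g, hg, rfl⟩
      obtain ⟨t, rfl⟩ := (mem_XX hD).1 hg
      exact ⟨t, rfl⟩
    · rintro ⟨t, rfl⟩
      exact ⟨_, (mem_XX hD).2 ⟨t, rfl⟩, rfl⟩
  have hinj := conj_injective (F := F) hD
  have hHx : ∀ t : F, H * MulAut.conj (xe hD a t) * H⁻¹ = MulAut.conj (xe hD a (χ a * t)) := by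
    intro t
    rw [conj_conj, hH.val a ha]
  have h1x : ∀ t : F, (Y * H * Y⁻¹) * MulAut.conj (xe hD a t) * (Y * H * Y⁻¹)⁻¹ =
      MulAut.conj (xe hD a (τ a' (χ a') * t)) := by
    intro t
    rw [conj_conj, hH.conj_mono hY ha']
  set y := τ a' (χ a') with hy
  have hy0 : y ≠ 0 := (map_ne_zero_iff _ (τ a').injective).2 (hH.ne a' ha')
  have hy1 : y ≠ 1 := by
    intro h
    apply h2
    apply (τ a').injective
    rw [map_one]; exact h
  have h1x' : ∀ t : F, (Y * H * Y⁻¹)⁻¹ * MulAut.conj (xe hD a t) * (Y * H * Y⁻¹) =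
      MulAut.conj (xe hD a (y⁻¹ * t)) := by
    intro t
    have h := h1x (y⁻¹ * t)
    rw [mul_inv_cancel_left₀ hy0] at h
    rw [← h]; group
  obtain ⟨χ', hχ'⟩ := hH.conj_mono' hY
  have key := Cfsg.Agent.H136.TwoGen.torus_trick M X (h := H) (w := Y) (u := MulAut.conj (xe hD a (1 : F))) hHM hYM
    ((memX _).2 ⟨1, rfl⟩) ?_ ?_ ?_ ?_ ?_ (hH.comm hχ') ?_
  · exact ⟨fun t => key.1 ((memX _).2 ⟨t, rfl⟩), key.2⟩
  · intro x hx
    obtain ⟨t, rfl⟩ := (memX x).1 hx
    rw [h1x]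
    exact (memX _).2 ⟨_, rfl⟩
  · intro x hx
    obtain ⟨t, rfl⟩ := (memX x).1 hx
    rw [h1x']
    exact (memX _).2 ⟨_, rfl⟩
  · intro Z hZX hZ
    have hA := irr (cf hD Z a) (by
      intro t ht
      show MulAut.conj (xe hD a (χ a * t)) ∈ Z
      rw [← hHx]
      exact hZ _ ht)
    rcases hA with hA | hA
    · left
      rw [eq_bot_iff]
      intro z hz
      obtain ⟨t, rfl⟩ := (memX z).1 (hZX hz)
      have : t ∈ cf hD Z a := hz
      rw [hA, AddSubgroup.mem_bot] at this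
      rw [this, xe_zero, map_one]
      exact Subgroup.one_mem _
    · right
      refine le_antisymm hZX ?_
      intro z hz
      obtain ⟨t, rfl⟩ := (memX z).1 hz
      have : t ∈ cf hD Z a := by rw [hA]; exact AddSubgroup.mem_top t
      exact this
  · refine ⟨MulAut.conj (xe hD a 1), (memX _).2 ⟨1, rfl⟩, fun h => ?_⟩
    have h3 := hHx 1
    rw [h, mul_inv_cancel_right, mul_one] at h3
    exact h1 (xe_inj hD ha (hinj h3)).symm
  · intro x hx
    obtain ⟨t, rfl⟩ := (memX x).1 hx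
    rw [hHx]
    exact (memX _).2 ⟨_, rfl⟩
  · intro h
    have h3 := h1x 1
    rw [h, mul_inv_cancel_right, mul_one] at h3
    exact hy1 (xe_inj hD ha (hinj h3)).symm

/-- **The pair `H, conj (x_a(1)) Y`** (`a = B a'`). -/
theorem range_le_of_pair {hD : InList D} {H Y : MulAut ↥(D.group F)} {χ : ℕ → F} (hH : IsDiag hD H χ) {B : ℕ → ℕ}
    {c : ℕ → F} {τ : ℕ → (F ≃+* F)} (hY : IsMono hD Y B c τ) {a a' : ℕ} (ha' : a' < D.nroots) (ha : B a' = a)
    (irr : Irr (χ a)) (h1 : χ a ≠ 1) (h2 : χ a' ≠ 1) {steps : List (ℕ × ℕ)}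
    (hrun : run D B (1 <<< a) steps = 2 ^ D.nroots - 1) {M : Subgroup (MulAut ↥(D.group F))} (hHM : H ∈ M)
    (hYM : MulAut.conj (xe hD a (1 : F)) * Y ∈ M) :
    (MulAut.conj : ↥(D.group F) →* MulAut ↥(D.group F)).range ≤ M := by
  subst ha
  obtain ⟨h3, h4⟩ := trick hH hY ha' irr h1 h2 hHM hYM
  refine range_le_of_run hY h4 (S := 1 <<< B a') (steps := steps) ?_ hrun
  intro k hk
  rw [Nat.one_shiftLeft, Nat.testBit_two_pow] at hk
  have : B a' = k := by simpa using hk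
  exact this ▸ h3

/-- **The pair `H conj (x_b(1)), conj (x_a(1)) Y`** (`a = B a'`, `b = B b'`), after `H` and `x_b(1)` are separated. -/
theorem range_le_of_pair' {hD : InList D} {H Y : MulAut ↥(D.group F)} {χ : ℕ → F} (hH : IsDiag hD H χ) {B : ℕ → ℕ}
    {c : ℕ → F} {τ : ℕ → (F ≃+* F)} (hY : IsMono hD Y B c τ) {a a' b b' : ℕ} (ha' : a' < D.nroots) (ha : B a' = a)
    (hb' : b' < D.nroots) (hb : B b' = b) (irr : Irr (χ a)) (h1 : χ a ≠ 1) (h2 : χ a' ≠ 1) (h3 : χ b = 1)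
    (irr' : Irr (χ b')) {N p : ℕ} (hN : H ^ N = 1) (hp : (p : F) = 0) (hco : Nat.Coprime N p)
    {steps : List (ℕ × ℕ)} (hrun : run D B ((1 <<< a) ||| (1 <<< b')) steps = 2 ^ D.nroots - 1)
    {M : Subgroup (MulAut ↥(D.group F))} (hHM : H * MulAut.conj (xe hD b (1 : F)) ∈ M)
    (hYM : MulAut.conj (xe hD a (1 : F)) * Y ∈ M) :
    (MulAut.conj : ↥(D.group F) →* MulAut ↥(D.group F)).range ≤ M := by
  subst ha
  subst hb
  have hbl := hY.lt _ hb'
  have hcomm : Commute H (MulAut.conj (xe hD (B b') (1 : F))) := by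
    have h := conj_conj H (xe hD (B b') (1 : F))
    rw [hH.val _ hbl, h3, one_mul] at h
    exact mul_inv_eq_iff_eq_mul.1 h
  have hxp : (MulAut.conj (xe hD (B b') (1 : F))) ^ p = 1 := by
    have h : ∀ n : ℕ, (xe hD (B b') (1 : F)) ^ n = xe hD (B b') (n : F) := by
      intro n
      induction n with
      | zero => rw [pow_zero, Nat.cast_zero, xe_zero]
      | succ n ih => rw [pow_succ, ih, Nat.cast_succ, xe_add]
    rw [← map_pow, h, hp, xe_zero, map_one]
  obtain ⟨hHM', hbM⟩ := mem_of_coprime hcomm hN hxp hco hHM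
  obtain ⟨h5, h6⟩ := trick hH hY ha' irr h1 h2 hHM' hYM
  -- the root group of `b'`
  have hb2 : ∃ v : F, v ≠ 0 ∧ MulAut.conj (xe hD b' v) ∈ M := by
    refine ⟨(τ b').symm (c b')⁻¹, ?_, ?_⟩
    · exact (map_ne_zero_iff _ (τ b').symm.injective).2 (inv_ne_zero (hY.ne b' hb'))
    · have e : Y (xe hD b' ((τ b').symm (c b')⁻¹)) = xe hD (B b') 1 := by
        rw [hY.val b' hb', RingEquiv.apply_symm_apply, mul_inv_cancel₀ (hY.ne b' hb')]
      have e2 : MulAut.conj (xe hD b' ((τ b').symm (c b')⁻¹)) = Y⁻¹ * MulAut.conj (xe hD (B b') 1) * Y := by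
        rw [← e, ← conj_conj Y]; group
      rw [e2]
      exact M.mul_mem (M.mul_mem (M.inv_mem h6) hbM) h6
  obtain ⟨v, hv0, hv⟩ := hb2
  have hcf : cf hD M b' = ⊤ := by
    rcases irr' (cf hD M b') (by
      intro t ht
      show MulAut.conj (xe hD b' (χ b' * t)) ∈ M
      rw [← hH.val b' hb', ← conj_conj]
      exact M.mul_mem (M.mul_mem hHM' ht) (M.inv_mem hHM')) with h | h
    · exfalso
      have : v ∈ cf hD M b' := hv
      rw [h, AddSubgroup.mem_bot] at this
      exact hv0 this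
    · exact h
  refine range_le_of_run hY h6 (S := (1 <<< B a') ||| (1 <<< b')) (steps := steps) ?_ hrun
  intro k hk
  rcases testBit_insert hk with h | rfl
  · rw [Nat.one_shiftLeft, Nat.testBit_two_pow] at h
    have : B a' = k := by simpa using h
    exact this ▸ h5
  · intro t
    have : t ∈ cf hD M k := by rw [hcf]; exact AddSubgroup.mem_top t
    exact this

/-! ### irreducibility -/

theorem irr_of_gen [Finite F] {k : Fˣ} (hk : ∀ x : Fˣ, x ∈ Subgroup.zpowers k) : Irr (k : F) := by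
  intro A hA
  apply Cfsg.Agent.H136.FieldLem.eq_bot_or_top hk
  intro a ha
  have := hA _ (hA _ ha)
  rwa [← mul_assoc, ← pow_two] at this

theorem irr_of_sq [Finite F] {k : Fˣ} (hk : ∀ x : Fˣ, x ∈ Subgroup.zpowers k) : Irr ((k : F) ^ 2) :=
  fun A hA => Cfsg.Agent.H136.FieldLem.eq_bot_or_top hk A hA

theorem Irr.inv [Finite F] {x : F} (h : Irr x) (hx : x ≠ 0) : Irr x⁻¹ := by
  intro A hA
  apply h
  intro t ht
  -- `x = (x⁻¹) ^ (n - 1)`
  have h1 : ∀ n : ℕ, (x⁻¹) ^ n * t ∈ A := by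
    intro n
    induction n with
    | zero => simpa using ht
    | succ n ih =>
      rw [pow_succ', mul_assoc]
      exact hA _ ih
  obtain ⟨n, hn, e⟩ := (isOfFinOrder_of_finite (Units.mk0 x hx)).exists_pow_eq_one
  have e' : x ^ n = 1 := by simpa using congrArg Units.val e
  have h2 := h1 (n - 1)
  have e2 : (x⁻¹) ^ (n - 1) = x := by
    rw [inv_pow]
    obtain ⟨m, rfl⟩ : ∃ m, n = m + 1 := ⟨n - 1, by omega⟩
    rw [Nat.add_sub_cancel]
    rw [pow_succ] at e'
    exact inv_eq_of_mul_eq_one_right e'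
  rwa [e2] at h2

theorem irr_zpow [Finite F] {k : Fˣ} (hk : ∀ x : Fˣ, x ∈ Subgroup.zpowers k) {n : ℤ}
    (hn : n = 1 ∨ n = 2 ∨ n = -1 ∨ n = -2) : Irr ((k : F) ^ n) := by
  rcases hn with rfl | rfl | rfl | rfl
  · rw [zpow_one]; exact irr_of_gen hk
  · exact_mod_cast irr_of_sq hk
  · rw [zpow_neg, zpow_one]; exact (irr_of_gen hk).inv k.ne_zero
  · rw [zpow_neg]
    have h : (k : F) ^ (2 : ℤ) = (k : F) ^ 2 := by exact_mod_cast rfl
    rw [h]
    exact (irr_of_sq hk).inv (pow_ne_zero _ k.ne_zero)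

end Cfsg.Agent.H95.DG.Mono
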